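import Cfsg.Agent.H251.L34.TabDDat

/-!
# S5917, type D: Schur's lemma for the three 8-dimensional modules of `D₄` (helper643)

Only the root vectors are needed (no diagonal elements).
-/

set_option autoImplicit false
set_option maxRecDepth 100000

namespace Cfsg.Agent.H643.L34

open Cfsg.Agent.H251.L34 Module

theorem rtb_inj : ∀ X b k l, rtb X b k < 8 → rtb X b k = rtb X b l → k = l := by decide +kernel

/-- separation -/
theorem rtb_sep : ∀ X k l, k ≠ l → ∃ b, ¬ rtb X b k < 8 ∧ rtb X b l < 8 := by decide +kernel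

/-- connectivity -/
theorem rtb_conn : ∀ X k, ∃ m : Fin 8, (m = 0 ∨ ∃ b, rtb X b 0 = m) ∧ (k = m ∨ ∃ b, rtb X b m = k) := by decide +kernel

section
variable {K M : Type*} [Field K] [AddCommGroup M] [Module K M] (e : Basis (Fin 8) K M) {X : Fin 3}
  {R : Fin 24 → M →ₗ[K] M}
include e

theorem repr_R (hR : ∀ b k, R b (e k) = if h : rtb X b k < 8 then e ⟨rtb X b k, h⟩ else 0) (b : Fin 24) (l : Fin 8)
    (h : rtb X b l < 8) (v : M) : e.repr (R b v) ⟨rtb X b l, h⟩ = e.repr v l := by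
  conv_lhs => rw [← e.sum_repr v]
  rw [map_sum, map_sum, Finsupp.finset_sum_apply, Finset.sum_eq_single l]
  · rw [map_smul, hR, dif_pos h, map_smul, Finsupp.smul_apply, Basis.repr_self, Finsupp.single_eq_same,
      smul_eq_mul, mul_one]
  · intro m _ hm
    rw [map_smul, hR, map_smul, Finsupp.smul_apply]
    split_ifs with h'
    · rw [Basis.repr_self, Finsupp.single_eq_of_ne, smul_zero]
      intro h3
      exact hm (rtb_inj X b m l h' (Fin.mk.inj_iff.1 h3).symm)
    · rw [map_zero, Finsupp.zero_apply, smul_zero]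
  · intro h'
    exact absurd (Finset.mem_univ l) h'

/-- **Schur** -/
theorem schur (hR : ∀ b k, R b (e k) = if h : rtb X b k < 8 then e ⟨rtb X b k, h⟩ else 0) (T : M →ₗ[K] M)
    (hT : ∀ b v, T (R b v) = R b (T v)) : ∃ a : K, ∀ v, T v = a • v := by
  have h0 : ∀ k l, k ≠ l → e.repr (T (e k)) l = 0 := by
    intro k l hkl
    obtain ⟨b, h1, h2⟩ := rtb_sep X k l hkl
    rw [← repr_R e hR b l h2, ← hT, hR, dif_neg h1, map_zero, map_zero, Finsupp.zero_apply]
  have h1 : ∀ (b : Fin 24) (k m : Fin 8), rtb X b k = m → e.repr (T (e m)) m = e.repr (T (e k)) k := by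
    intro b k m hm
    have hk : rtb X b k < 8 := by rw [hm]; exact m.2
    have hm' : (⟨rtb X b k, hk⟩ : Fin 8) = m := Fin.ext hm
    rw [← repr_R e hR b k hk, ← hT, hR, dif_pos hk, hm']
  have h2 : ∀ k, e.repr (T (e k)) k = e.repr (T (e 0)) 0 := by
    intro k
    obtain ⟨m, hm, hk⟩ := rtb_conn X k
    have a1 : e.repr (T (e m)) m = e.repr (T (e 0)) 0 := by
      rcases hm with rfl | ⟨b, hb⟩
      · rfl
      · exact h1 b 0 m hb
    rcases hk with rfl | ⟨b, hb⟩
    · exact a1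
    · rw [← a1]
      exact h1 b m k hb
  refine ⟨e.repr (T (e 0)) 0, fun v => ?_⟩
  have h3 : ∀ k, T (e k) = e.repr (T (e 0)) 0 • e k := by
    intro k
    apply e.repr.injective
    ext l
    rw [map_smul, Finsupp.smul_apply, Basis.repr_self]
    by_cases hkl : k = l
    · subst hkl
      rw [Finsupp.single_eq_same, smul_eq_mul, mul_one, h2]
    · rw [Finsupp.single_eq_of_ne (Ne.symm hkl), smul_zero, h0 k l hkl]
  have h4 : T = (e.repr (T (e 0)) 0) • (LinearMap.id : M →ₗ[K] M) := by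
    refine e.ext fun k => ?_
    rw [h3 k]
    rfl
  calc T v = ((e.repr (T (e 0)) 0) • (LinearMap.id : M →ₗ[K] M)) v := by rw [← h4]
    _ = e.repr (T (e 0)) 0 • v := rfl

end

/-- the same on `Fin 8 → K` -/
theorem schur_fun {K : Type*} [Field K] {X : Fin 3} {R : Fin 24 → (Fin 8 → K) →ₗ[K] (Fin 8 → K)}
    (hR : ∀ b k, R b (Pi.single k 1) = if h : rtb X b k < 8 then Pi.single ⟨rtb X b k, h⟩ 1 else 0)
    (T : (Fin 8 → K) →ₗ[K] (Fin 8 → K)) (hT : ∀ b v, T (R b v) = R b (T v)) : ∃ a : K, ∀ v, T v = a • v := by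
  refine schur (X := X) (R := R) (Pi.basisFun K (Fin 8)) (fun b k => ?_) T hT
  rw [Pi.basisFun_apply, hR]
  split_ifs with h
  · rw [Pi.basisFun_apply]
  · rfl

/-- in the ring `End` -/
theorem schur_one {K : Type*} [Field K] {X : Fin 3} {R : Fin 24 → Module.End K (Fin 8 → K)}
    (hR : ∀ b k, R b (Pi.single k 1) = if h : rtb X b k < 8 then Pi.single ⟨rtb X b k, h⟩ 1 else 0)
    (T : Module.End K (Fin 8 → K)) (hT : ∀ b, T * R b = R b * T) : ∃ a : K, T = a • (1 : Module.End K (Fin 8 → K)) := by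
  obtain ⟨a, ha⟩ := schur_fun (X := X) (R := R) hR T (fun b v => LinearMap.congr_fun (hT b) v)
  exact ⟨a, LinearMap.ext ha⟩

end Cfsg.Agent.H643.L34
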